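import Cfsg.Agent.H124.LinCyc

/-!
# S4929: `p`-singular matrices in dimension `ord_p(q)` (helper926)

`fix_dvd` : `ord_p(q) ∣ dim V - dim V^y`; `no_eig` : in dimension `ord_p(q)` a matrix of order divisible by `p` has no
eigenvector.
-/

set_option autoImplicit false

namespace Cfsg.Agent.H926.EP

open Module Cfsg.Agent.H124.LinCyc

section

variable {F : Type*} [Field F] [Fintype F] {ι : Type*} [Fintype ι] [DecidableEq ι] {p D : ℕ} [hp : Fact p.Prime]

/-- the dimension of the space of fixed vectors of a `p`-element -/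
theorem fix_dvd (hD : 0 < D) (hiff : ∀ j, p ∣ Fintype.card F ^ j - 1 ↔ D ∣ j) {y : Matrix ι ι F} {a : ℕ}
    (hy : y ^ p ^ a = 1) : D ∣ Fintype.card ι - finrank F (LinearMap.ker (Matrix.toLin' y - 1)) := by
  obtain ⟨u, hu⟩ : IsUnit y := IsUnit.of_pow_eq_one hy (pow_ne_zero _ hp.out.ne_zero)
  let τ : Matrix.GeneralLinearGroup ι F ≃* ((ι → F) ≃ₗ[F] (ι → F)) :=
    Matrix.GeneralLinearGroup.toLin.trans (LinearMap.GeneralLinearGroup.generalLinearEquiv F (ι → F))
  let σ : Subgroup.zpowers u →* ((ι → F) ≃ₗ[F] (ι → F)) := τ.toMonoidHom.comp (Subgroup.zpowers u).subtype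
  have hup : u ^ p ^ a = 1 := by
    apply Units.ext
    rw [Units.val_pow_eq_pow_val, hu, hy, Units.val_one]
  have hP : IsPGroup p (Subgroup.zpowers u) := by
    rintro ⟨_, k, rfl⟩
    refine ⟨a, Subtype.ext ?_⟩
    change (u ^ k) ^ p ^ a = 1
    rw [← zpow_natCast, zpow_comm, zpow_natCast, hup, one_zpow]
  have h1 := dvd_sub hD hiff hP σ
  rw [Module.finrank_fintype_fun_eq_card] at h1
  have happ : ∀ (g : Matrix.GeneralLinearGroup ι F) (v : ι → F), τ g v = (g : Matrix ι ι F).mulVec v := fun g v => rfl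
  have h2 : fix σ = LinearMap.ker (Matrix.toLin' y - 1) := by
    ext v
    rw [LinearMap.mem_ker, LinearMap.sub_apply, sub_eq_zero, Matrix.toLin'_apply]
    constructor
    · intro h
      have h3 := h ⟨u, Subgroup.mem_zpowers u⟩
      change τ u v = v at h3
      rw [happ, hu] at h3
      exact h3
    · rintro h ⟨_, k, rfl⟩
      change τ (u ^ k) v = v
      rw [map_zpow]
      have h1 : τ u ∈ MulAction.stabilizer ((ι → F) ≃ₗ[F] (ι → F)) v := by
        change τ u v = v
        rw [happ, hu]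
        exact h
      exact (MulAction.stabilizer ((ι → F) ≃ₗ[F] (ι → F)) v).zpow_mem h1 k
  rwa [h2] at h1

omit [Fintype F] in
theorem mem_fix {y : Matrix ι ι F} {v : ι → F} : v ∈ LinearMap.ker (Matrix.toLin' y - 1) ↔ y.mulVec v = v := by
  rw [LinearMap.mem_ker, LinearMap.sub_apply, sub_eq_zero, Matrix.toLin'_apply]
  rfl

/-- fixed-point-freeness in dimension `ord_p(q)` -/
theorem no_fix (hD : 0 < D) (hiff : ∀ j, p ∣ Fintype.card F ^ j - 1 ↔ D ∣ j) (hι : Fintype.card ι = D)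
    {y : Matrix ι ι F} {a : ℕ} (hy : y ^ p ^ a = 1) (hy1 : y ≠ 1) {v : ι → F} (hv : y.mulVec v = v) : v = 0 := by
  by_contra hv0
  have h1 := fix_dvd hD hiff hy
  have h2 : 0 < finrank F (LinearMap.ker (Matrix.toLin' y - 1)) := by
    rw [Module.finrank_pos_iff]
    exact ⟨⟨⟨v, mem_fix.2 hv⟩, 0, fun h => hv0 (congrArg Subtype.val h)⟩⟩
  have h3 : finrank F (LinearMap.ker (Matrix.toLin' y - 1)) ≤ Fintype.card ι := by
    rw [← Module.finrank_fintype_fun_eq_card F]
    exact Submodule.finrank_le _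
  have h4 := Nat.eq_zero_of_dvd_of_lt h1 (by omega)
  have h5 : LinearMap.ker (Matrix.toLin' y - 1) = ⊤ := by
    apply Submodule.eq_top_of_finrank_eq
    rw [Module.finrank_fintype_fun_eq_card]
    omega
  apply hy1
  apply Matrix.toLin'.injective
  rw [Matrix.toLin'_one]
  rw [LinearMap.ker_eq_top, sub_eq_zero] at h5
  exact h5

/-- **no eigenvectors in dimension `ord_p(q)`** -/
theorem no_eig (hD : 2 ≤ D) (hiff : ∀ j, p ∣ Fintype.card F ^ j - 1 ↔ D ∣ j) (hι : Fintype.card ι = D)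
    {z : Matrix.GeneralLinearGroup ι F} (hz : p ∣ orderOf z) {v : ι → F} (hv : v ≠ 0) (c : F) :
    (z : Matrix ι ι F).mulVec v ≠ c • v := by
  intro h
  have hz0 : 0 < orderOf z := orderOf_pos z
  obtain ⟨k, hk⟩ := hz
  have hk0 : k ≠ 0 := by
    rintro rfl
    omega
  have hyo : orderOf (z ^ k) = p := by
    rw [orderOf_pow_of_dvd hk0 (Dvd.intro_left p hk.symm), hk]
    exact Nat.mul_div_cancel _ (Nat.pos_of_ne_zero hk0)
  have hpow : ∀ n : ℕ, ((z ^ n : Matrix.GeneralLinearGroup ι F) : Matrix ι ι F).mulVec v = c ^ n • v := by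
    intro n
    induction n with
    | zero => simp
    | succ n ih =>
      rw [pow_succ, Units.val_mul, ← Matrix.mulVec_mulVec, h, Matrix.mulVec_smul, ih, smul_smul, pow_succ']
  have hc0 : c ≠ 0 := by
    rintro rfl
    rw [zero_smul] at h
    apply hv
    have h2 : ((z⁻¹ : Matrix.GeneralLinearGroup ι F) : Matrix ι ι F).mulVec ((z : Matrix ι ι F).mulVec v) = v := by
      rw [Matrix.mulVec_mulVec, ← Units.val_mul, inv_mul_cancel, Units.val_one, Matrix.one_mulVec]
    rw [← h2, h, Matrix.mulVec_zero]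
  have hcp : (c ^ k) ^ p = 1 := by
    have h1 := hpow (k * p)
    rw [pow_mul, ← hyo, pow_orderOf_eq_one, Units.val_one, Matrix.one_mulVec, pow_mul, hyo] at h1
    have h2 : ((c ^ k) ^ p - 1) • v = 0 := by rw [sub_smul, one_smul, ← h1, sub_self]
    exact sub_eq_zero.1 ((smul_eq_zero.1 h2).resolve_right hv)
  have hc1 : c ^ k = 1 := by
    have h1 : (c ^ k) ^ (Fintype.card F - 1) = 1 := FiniteField.pow_card_sub_one_eq_one _ (pow_ne_zero _ hc0)
    have h2 : Nat.Coprime p (Fintype.card F - 1) := by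
      rw [Nat.Prime.coprime_iff_not_dvd hp.out]
      intro h3
      have h4 := (hiff 1).1 (by rwa [pow_one])
      have := Nat.le_of_dvd one_pos h4
      omega
    have h3 : orderOf (c ^ k) ∣ 1 := by
      have h4 := Nat.dvd_gcd (orderOf_dvd_of_pow_eq_one hcp) (orderOf_dvd_of_pow_eq_one h1)
      rwa [h2] at h4
    exact orderOf_eq_one_iff.1 (Nat.dvd_one.1 h3)
  have h5 := hpow k
  rw [hc1, one_smul] at h5
  refine hv (no_fix (by omega) hiff hι (a := 1) (y := ((z ^ k : Matrix.GeneralLinearGroup ι F) : Matrix ι ι F)) ?_ ?_ h5)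
  · rw [pow_one, ← Units.val_pow_eq_pow_val, ← hyo, pow_orderOf_eq_one, Units.val_one]
  · intro h6
    have h7 : z ^ k = 1 := Units.ext h6
    rw [h7, orderOf_one] at hyo
    exact hp.out.one_lt.ne hyo

end

end Cfsg.Agent.H926.EP
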